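import Mathlib

/-!
# Blichfeldt's lemma on conjugate unitary matrices with close eigenvalues

`ρ` is an irreducible complex representation of a finite group `G` with an invariant positive
definite Hermitian form `B`, `A : G` generates `G` as a normal subgroup and `ρ A` has the
eigenvalue `lam`, all other eigenvalues being within an angle `< π / 3` of `lam`.  Then `ρ A` is the
scalar `lam`.
-/

set_option autoImplicit false

namespace Cfsg.Agent.H602.Blich

open scoped ComplexConjugate

variable {G V : Type*} [Group G] [AddCommGroup V] [Module ℂ V]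

/-- An invariant positive definite Hermitian form for `ρ`. -/
structure InvForm (ρ : Representation ℂ G V) (B : V → V → ℂ) : Prop where
  add_right : ∀ u v w, B u (v + w) = B u v + B u w
  smul_right : ∀ (c : ℂ) u v, B u (c • v) = c * B u v
  symm : ∀ u v, B v u = conj (B u v)
  pos : ∀ u, u ≠ 0 → 0 < (B u u).re
  inv : ∀ g u v, B (ρ g u) (ρ g v) = B u v

namespace InvForm

variable {ρ : Representation ℂ G V} {B : V → V → ℂ} (h : InvForm ρ B)

include h

theorem add_left (u v w : V) : B (u + v) w = B u w + B v w := by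
  rw [h.symm w (u + v), h.add_right, map_add, ← h.symm w u, ← h.symm w v]

theorem smul_left (c : ℂ) (u v : V) : B (c • u) v = conj c * B u v := by
  rw [h.symm v (c • u), h.smul_right, map_mul, ← h.symm v u]

theorem zero_right (u : V) : B u 0 = 0 := by
  have := h.smul_right 0 u 0
  simpa using this

theorem zero_left (u : V) : B 0 u = 0 := by
  have := h.smul_left 0 0 u
  simpa using this

theorem sub_right (u v w : V) : B u (v - w) = B u v - B u w := by
  have h1 : v - w = v + (-1 : ℂ) • w := by simp [sub_eq_add_neg]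
  rw [h1, h.add_right, h.smul_right]; ring

theorem sub_left (u v w : V) : B (u - v) w = B u w - B v w := by
  have h1 : u - v = u + (-1 : ℂ) • v := by simp [sub_eq_add_neg]
  rw [h1, h.add_left, h.smul_left]; simp [sub_eq_add_neg]

theorem sub_sub (a d : V) :
    B (a - d) (a - d) = B a a + B d d - (B d a + conj (B d a)) := by
  rw [h.sub_left, h.sub_right, h.sub_right, ← h.symm d a]
  ring

theorem sum_right {ι : Type*} (s : Finset ι) (u : V) (f : ι → V) :
    B u (∑ i ∈ s, f i) = ∑ i ∈ s, B u (f i) := by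
  classical
  induction s using Finset.induction_on with
  | empty => simp [h.zero_right]
  | insert a s ha ih => rw [Finset.sum_insert ha, Finset.sum_insert ha, h.add_right, ih]

theorem sum_left {ι : Type*} (s : Finset ι) (u : V) (f : ι → V) :
    B (∑ i ∈ s, f i) u = ∑ i ∈ s, B (f i) u := by
  classical
  induction s using Finset.induction_on with
  | empty => simp [h.zero_left]
  | insert a s ha ih => rw [Finset.sum_insert ha, Finset.sum_insert ha, h.add_left, ih]

end InvForm

variable (ρ : Representation ℂ G V) (lam : ℂ)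

/-- The normalised operator. -/
noncomputable def T (x : G) (u : V) : V := lam⁻¹ • ρ x u

variable {ρ lam} {B : V → V → ℂ}

theorem T_add (x : G) (u v : V) : T ρ lam x (u + v) = T ρ lam x u + T ρ lam x v := by
  simp [T, map_add, smul_add]

theorem T_sub (x : G) (u v : V) : T ρ lam x (u - v) = T ρ lam x u - T ρ lam x v := by
  simp [T, map_sub, smul_sub]

theorem T_smul (x : G) (c : ℂ) (v : V) : T ρ lam x (c • v) = c • T ρ lam x v := by
  simp only [T, map_smul]; rw [smul_comm]

theorem T_comm (x y : G) (u : V) :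
    T ρ lam y (T ρ lam (y⁻¹ * x * y) u) = T ρ lam x (T ρ lam y u) := by
  simp only [T, map_smul]
  rw [← Module.End.mul_apply, ← Module.End.mul_apply, ← map_mul, ← map_mul]
  congr 4
  group

theorem B_T_T (hB : InvForm ρ B) (hl : lam * conj lam = 1) (x : G) (u v : V) :
    B (T ρ lam x u) (T ρ lam x v) = B u v := by
  have hl0 : lam ≠ 0 := by rintro rfl; simp at hl
  rw [T, T, hB.smul_left, hB.smul_right, hB.inv, map_inv₀]
  have : (conj lam)⁻¹ * lam⁻¹ = 1 := by
    rw [← mul_inv, mul_comm, hl, inv_one]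
  rw [← mul_assoc, this, one_mul]

/-- The hypothesis on the angles. -/
def Close (ρ : Representation ℂ G V) (lam : ℂ) (B : V → V → ℂ) (x : G) : Prop :=
  ∀ u : V, u ≠ 0 → (B u u).re < 2 * (B u (T ρ lam x u)).re

theorem T_conj (g x : G) (u : V) :
    T ρ lam (g * x * g⁻¹) u = ρ g (T ρ lam x (ρ g⁻¹ u)) := by
  simp only [T, map_smul, map_mul, Module.End.mul_apply]

theorem rho_inv_mul (g : G) (u : V) : ρ g (ρ g⁻¹ u) = u := by
  rw [← Module.End.mul_apply, ← map_mul, mul_inv_cancel, map_one, Module.End.one_apply]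

theorem rho_mul_inv (g : G) (u : V) : ρ g⁻¹ (ρ g u) = u := by
  rw [← Module.End.mul_apply, ← map_mul, inv_mul_cancel, map_one, Module.End.one_apply]

theorem close_conj (hB : InvForm ρ B) {x : G} (hx : Close ρ lam B x) (g : G) :
    Close ρ lam B (g * x * g⁻¹) := by
  intro u hu
  have h1 : ρ g⁻¹ u ≠ 0 := by
    intro h
    apply hu
    have := rho_inv_mul (ρ := ρ) g u
    rw [h, map_zero] at this
    exact this.symm
  have h2 := hx _ h1
  rw [hB.inv] at h2
  rw [T_conj]
  have h3 : B u (ρ g (T ρ lam x (ρ g⁻¹ u))) = B (ρ g⁻¹ u) (T ρ lam x (ρ g⁻¹ u)) := by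
    rw [← hB.inv g (ρ g⁻¹ u), rho_inv_mul]
  rw [h3]
  exact h2

theorem close_of_isConj (hB : InvForm ρ B) {x y : G} (hx : Close ρ lam B x) (h : IsConj x y) :
    Close ρ lam B y := by
  obtain ⟨g, rfl⟩ := isConj_iff.mp h
  exact close_conj hB hx g

/-- The elements of the class of `A` which fix `v` (after normalisation). -/
def Fix (ρ : Representation ℂ G V) (lam : ℂ) (A : G) (v : V) : Set G :=
  {x | IsConj A x ∧ T ρ lam x v = v}

theorem isConj_conj {A x : G} (h : IsConj A x) (y : G) : IsConj A (y⁻¹ * x * y) := by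
  refine h.trans ?_
  rw [isConj_iff]
  exact ⟨y⁻¹, by simp⟩

/-- The inverse of `T y`, applied to `u`. -/
noncomputable def Ti (ρ : Representation ℂ G V) (lam : ℂ) (y : G) (u : V) : V := lam • ρ y⁻¹ u

theorem T_Ti (hl0 : lam ≠ 0) (y : G) (u : V) : T ρ lam y (Ti ρ lam y u) = u := by
  simp only [T, Ti, map_smul, rho_inv_mul]
  rw [smul_smul, inv_mul_cancel₀ hl0, one_smul]

theorem T_injective (hl0 : lam ≠ 0) (y : G) {u v : V} (h : T ρ lam y u = T ρ lam y v) : u = v := by
  have h1 : ρ y u = ρ y v := by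
    have := congrArg (fun w => lam • w) h
    simpa [T, smul_smul, hl0] using this
  have h2 := congrArg (ρ y⁻¹) h1
  rwa [rho_mul_inv, rho_mul_inv] at h2

theorem fix_Ti (hl0 : lam ≠ 0) {x y : G} {u : V} (hx : T ρ lam x u = u) :
    T ρ lam (y⁻¹ * x * y) (Ti ρ lam y u) = Ti ρ lam y u := by
  apply T_injective hl0 y
  rw [T_comm, T_Ti hl0, hx]

/-- Claim 1. -/
theorem claim_one [Finite G] (hB : InvForm ρ B) {A : G} {m : ℕ} (hm : 0 < m) (hlm : lam ^ m = 1)
    (hAm : A ^ m = 1) (hl : lam * conj lam = 1)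
    (hA : Close ρ lam B A) {M : Set G} (hMA : ∀ x ∈ M, IsConj A x)
    (hmax : ∀ u : V, u ≠ 0 → (∀ x ∈ M, T ρ lam x u = u) → ∀ y, IsConj A y → T ρ lam y u = u → y ∈ M)
    {u : V} (hu : ∀ x ∈ M, T ρ lam x u = u) {y : G} (hy : IsConj A y) (hyM : y ∉ M) {w : V}
    (hw : T ρ lam y w = w) : B w u = 0 := by
  have hl0 : lam ≠ 0 := by rintro rfl; simp at hl
  by_contra hbad
  have hu0 : u ≠ 0 := by rintro rfl; exact hbad (hB.zero_right w)
  -- the set of bad elements
  let bad : Set G := {y | IsConj A y ∧ y ∉ M ∧ ∃ w, T ρ lam y w = w ∧ B w u ≠ 0}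
  have hne : bad.Nonempty := ⟨y, hy, hyM, w, hw, hbad⟩
  obtain ⟨z₀, hz₀, hmin⟩ := Set.exists_min_image bad
    (fun y => (B (T ρ lam y u - u) (T ρ lam y u - u)).re) (Set.toFinite _) hne
  obtain ⟨hcz, hzM, w₁, hw₁, hw₁u⟩ := hz₀
  -- `z₀` normalises `M`
  have hnorm : ∀ x ∈ M, z₀⁻¹ * x * z₀ ∈ M := by
    intro x hx
    by_contra hn
    set z := z₀⁻¹ * x * z₀ with hz
    have hcz' : IsConj A z := isConj_conj (hMA x hx) z₀
    set d := T ρ lam z₀ u - u with hd
    have hd0 : d ≠ 0 := by
      intro h0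
      exact hzM (hmax u hu0 hu z₀ hcz (sub_eq_zero.mp h0))
    have hTz : T ρ lam z₀ (T ρ lam z u - u) = T ρ lam x d - d := by
      rw [T_sub, hz, T_comm, hd, T_sub, hu x hx]
      abel
    have hlt : (B (T ρ lam z u - u) (T ρ lam z u - u)).re < (B d d).re := by
      rw [← B_T_T hB hl z₀, hTz]
      have h1 : B (T ρ lam x d - d) (T ρ lam x d - d) =
          B d d + B d d - (B d (T ρ lam x d) + conj (B d (T ρ lam x d))) := by
        rw [hB.sub_sub, B_T_T hB hl]
      have h2 : (B (T ρ lam x d - d) (T ρ lam x d - d)).re =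
          2 * (B d d).re - 2 * (B d (T ρ lam x d)).re := by
        rw [h1]
        simp only [Complex.sub_re, Complex.add_re, Complex.conj_re]
        ring
      have h3 := close_of_isConj hB hA (hMA x hx) d hd0
      rw [h2]
      linarith
    have hnb : z ∉ bad := fun hb => absurd (hmin z hb) (not_le.mpr hlt)
    have hz0 : B (Ti ρ lam z₀ u) u = 0 := by
      by_contra hne0
      exact hnb ⟨hcz', hn, Ti ρ lam z₀ u, fix_Ti hl0 (hu x hx), hne0⟩
    have h4 : B (Ti ρ lam z₀ u) u = B u (T ρ lam z₀ u) := by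
      rw [← B_T_T hB hl z₀, T_Ti hl0]
    have h5 := close_of_isConj hB hA hcz u hu0
    have h6 := hB.pos u hu0
    rw [← h4, hz0] at h5
    simp only [Complex.zero_re, mul_zero] at h5
    linarith
  -- the average over the powers of `T z₀`
  have hpow : ∀ s : ℕ, ∀ x ∈ M, T ρ lam x ((T ρ lam z₀)^[s] u) = (T ρ lam z₀)^[s] u := by
    intro s
    induction s with
    | zero => intro x hx; exact hu x hx
    | succ s ih =>
      intro x hx
      rw [Function.iterate_succ_apply', ← T_comm, ih _ (hnorm x hx)]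
  have hzm : z₀ ^ m = 1 := by
    obtain ⟨g, rfl⟩ := isConj_iff.mp hcz
    rw [conj_pow, hAm]; simp
  have hiter : ∀ s : ℕ, ∀ v, (T ρ lam z₀)^[s] v = (lam⁻¹) ^ s • ρ (z₀ ^ s) v := by
    intro s
    induction s with
    | zero => intro v; simp
    | succ s ih =>
      intro v
      rw [Function.iterate_succ_apply', ih, T, map_smul, smul_smul, ← Module.End.mul_apply,
        ← map_mul, ← pow_succ', ← pow_succ']
  set P : V := ∑ s ∈ Finset.range m, (T ρ lam z₀)^[s] u with hP
  have hPT : ∀ x : G, T ρ lam x P = ∑ s ∈ Finset.range m, T ρ lam x ((T ρ lam z₀)^[s] u) := by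
    intro x
    simp only [T, hP, map_sum, Finset.smul_sum]
  have hPF : ∀ x ∈ M, T ρ lam x P = P := by
    intro x hx
    rw [hPT, hP]
    exact Finset.sum_congr rfl fun s _ => hpow s x hx
  have hPz : T ρ lam z₀ P = P := by
    rw [hPT]
    have h1 : ∀ s ∈ Finset.range m, T ρ lam z₀ ((T ρ lam z₀)^[s] u) = (T ρ lam z₀)^[s + 1] u :=
      fun s _ => (Function.iterate_succ_apply' _ _ _).symm
    rw [Finset.sum_congr rfl h1]
    have h2 := Finset.sum_range_succ' (fun s => (T ρ lam z₀)^[s] u) m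
    have h3 := Finset.sum_range_succ (fun s => (T ρ lam z₀)^[s] u) m
    have h4 : (T ρ lam z₀)^[m] u = (T ρ lam z₀)^[0] u := by
      rw [hiter, hzm, inv_pow, hlm]; simp
    rw [h3, h4] at h2
    exact (add_right_cancel h2).symm
  have hwP : B w₁ P = m * B w₁ u := by
    have hws : ∀ s : ℕ, B w₁ ((T ρ lam z₀)^[s] u) = B w₁ u := by
      intro s
      induction s with
      | zero => rfl
      | succ s ih =>
        rw [Function.iterate_succ_apply']
        nth_rewrite 1 [← hw₁]
        rw [B_T_T hB hl, ih]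
    rw [hP, hB.sum_right, Finset.sum_congr rfl fun s _ => hws s]
    simp
  have hP0 : P ≠ 0 := by
    intro h0
    rw [h0, hB.zero_right] at hwP
    have : (m : ℂ) * B w₁ u ≠ 0 := mul_ne_zero (Nat.cast_ne_zero.mpr hm.ne') hw₁u
    exact this hwP.symm
  exact hzM (hmax P hP0 hPF z₀ hcz hPz)

/-- **Blichfeldt's lemma.** -/
theorem scalar_of_close [Finite G] (hirr : ρ.IsIrreducible) (hB : InvForm ρ B) {A : G} {m : ℕ}
    (hm : 0 < m) (hlm : lam ^ m = 1) (hAm : A ^ m = 1) (hl : lam * conj lam = 1)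
    (hA : Close ρ lam B A) (hnc : Subgroup.normalClosure {A} = ⊤)
    {v₀ : V} (hv₀ : v₀ ≠ 0) (hv : ρ A v₀ = lam • v₀) : ∀ v, ρ A v = lam • v := by
  have hl0 : lam ≠ 0 := by rintro rfl; simp at hl
  -- a maximal set of the shape `Fix v`
  let S : Set (Set G) := {M | ∃ v, v ≠ 0 ∧ M = Fix ρ lam A v}
  have hS0 : Fix ρ lam A v₀ ∈ S := ⟨v₀, hv₀, rfl⟩
  obtain ⟨M, hle, hMmax⟩ := Set.Finite.exists_le_maximal (Set.toFinite S) hS0
  obtain ⟨⟨v₁, hv₁, hM⟩, hmx⟩ := hMmax
  have hMA : ∀ x ∈ M, IsConj A x := by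
    intro x hx; rw [hM] at hx; exact hx.1
  have hv₁M : ∀ x ∈ M, T ρ lam x v₁ = v₁ := by
    intro x hx; rw [hM] at hx; exact hx.2
  have hmax : ∀ u : V, u ≠ 0 → (∀ x ∈ M, T ρ lam x u = u) → ∀ y, IsConj A y →
      T ρ lam y u = u → y ∈ M := by
    intro u hu huM y hy hyu
    have h1 : Fix ρ lam A u ∈ S := ⟨u, hu, rfl⟩
    have h2 : M ≤ Fix ρ lam A u := fun x hx => ⟨hMA x hx, huM x hx⟩
    exact hmx h1 h2 ⟨hy, hyu⟩
  have hAM : A ∈ M := hle ⟨IsConj.refl A, by rw [T, hv, smul_smul, inv_mul_cancel₀ hl0, one_smul]⟩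
  -- each element of the class normalises `M`
  have hnorm : ∀ x, IsConj A x → ∀ y ∈ M, x⁻¹ * y * x ∈ M := by
    intro x hx y hy
    by_contra hn
    have h1 := claim_one hB hm hlm hAm hl hA hMA hmax hv₁M (isConj_conj (hMA y hy) x) hn
      (fix_Ti hl0 (hv₁M y hy))
    have h4 : B (Ti ρ lam x v₁) v₁ = B v₁ (T ρ lam x v₁) := by
      rw [← B_T_T hB hl x, T_Ti hl0]
    have h5 := close_of_isConj hB hA hx v₁ hv₁
    have h6 := hB.pos v₁ hv₁
    rw [← h4, h1] at h5
    simp only [Complex.zero_re, mul_zero] at h5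
    linarith
  -- the fixed space is invariant
  let F : Submodule ℂ V :=
    { carrier := {u | ∀ x ∈ M, T ρ lam x u = u}
      add_mem' := fun {a b} ha hb x hx => by rw [T_add, ha x hx, hb x hx]
      zero_mem' := fun x _ => by simp [T]
      smul_mem' := fun c a ha x hx => by rw [T_smul, ha x hx] }
  have hFK : ∀ x, IsConj A x → ∀ u ∈ F, ρ x u ∈ F := by
    intro x hx u hu
    have h1 : T ρ lam x u ∈ F := by
      intro y hy
      rw [← T_comm, hu _ (hnorm x hx y hy)]
    have h2 : ρ x u = lam • T ρ lam x u := by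
      rw [T, smul_smul, mul_inv_cancel₀ hl0, one_smul]
    rw [h2]
    exact F.smul_mem _ h1
  let N : Submonoid G :=
    { carrier := {x | ∀ u ∈ F, ρ x u ∈ F}
      mul_mem' := fun {a b} ha hb u hu => by
        rw [map_mul, Module.End.mul_apply]; exact ha _ (hb _ hu)
      one_mem' := fun u hu => by rw [map_one]; exact hu }
  have hN : ∀ x ∈ N, x⁻¹ ∈ N := by
    intro x hx
    obtain ⟨k, hk⟩ : ∃ k : ℕ, x ^ k = x⁻¹ := by
      refine ⟨orderOf x - 1, ?_⟩
      have h1 : x ^ (orderOf x - 1) * x = 1 := by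
        rw [← pow_succ, Nat.sub_add_cancel (orderOf_pos x), pow_orderOf_eq_one]
      exact eq_inv_of_mul_eq_one_left h1
    rw [← hk]
    exact N.pow_mem hx k
  let N' : Subgroup G := { N with inv_mem' := fun {x} hx => hN x hx }
  have hN'top : N' = ⊤ := by
    rw [eq_top_iff, ← hnc, Subgroup.normalClosure, Subgroup.closure_le]
    intro x hx
    rw [Group.mem_conjugatesOfSet_iff] at hx
    obtain ⟨a, ha, hax⟩ := hx
    rw [Set.mem_singleton_iff] at ha
    subst ha
    exact hFK x hax
  have hFinv : ∀ g : G, ∀ u ∈ F, ρ g u ∈ F := by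
    intro g
    have : g ∈ N' := by rw [hN'top]; exact Subgroup.mem_top g
    exact this
  have hFtop : F = ⊤ := by
    let F' : Subrepresentation ρ := ⟨F, fun g u hu => hFinv g u hu⟩
    have hF' : F' = ⊥ ∨ F' = ⊤ := hirr.eq_bot_or_eq_top F'
    rcases hF' with h | h
    · exfalso
      have h1 : v₁ ∈ F' := hv₁M
      rw [h] at h1
      exact hv₁ h1
    · have h1 := congrArg Subrepresentation.toSubmodule h
      exact h1
  intro v
  have hvF : v ∈ F := by rw [hFtop]; trivial
  have h1 := hvF A hAM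
  rw [T] at h1
  have h2 := congrArg (fun w => lam • w) h1
  simpa [smul_smul, hl0] using h2

end Cfsg.Agent.H602.Blich
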